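import Cfsg.Agent.Solv.HKK

/-! Lie rings and 2-groups acted on by the Frobenius group of order `39`. -/

set_option autoImplicit false

namespace Cfsg.Lib.Crit

open Cfsg.Lib.Solv Cfsg.Lib.Solv.Lie

universe u

instance fact13 : Fact (Nat.Prime 13) := ⟨by norm_num⟩

section ext

variable {R : Type*} [CommRing R] {T : Type*} [LieRing T] [LieAlgebra R T]

/-- The projection (times `13`) to an eigenspace. -/
noncomputable def prj (e : AddChar (ZMod 13) R) (B : Module.End R T) (d : ZMod 13) :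
    Module.End R T :=
  ∑ k ∈ Finset.range 13, e (d * -(k : ZMod 13)) • B ^ k

theorem pow_apply_of_eig {e : AddChar (ZMod 13) R} {B : Module.End R T} {c : ZMod 13} {u : T}
    (hu : u ∈ eig B (e c)) (k : ℕ) : (B ^ k) u = e (c * k) • u := by
  induction k with
  | zero => simp
  | succ k ih =>
    rw [pow_succ', Module.End.mul_apply, ih, map_smul, mem_eig.1 hu, smul_smul,
      ← e.map_add_eq_mul]
    congr 2
    push_cast; ring

theorem prj_apply {e : AddChar (ZMod 13) R} (he : ∑ t, e t = 0) {B : Module.End R T}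
    {c : ZMod 13} {u : T} (hu : u ∈ eig B (e c)) (d : ZMod 13) :
    prj e B d u = if c = d then 13 • u else 0 := by
  have h1 : prj e B d u = (∑ k ∈ Finset.range 13, e ((k : ZMod 13) * (c - d))) • u := by
    rw [prj, LinearMap.sum_apply, Finset.sum_smul]
    refine Finset.sum_congr rfl fun k _ => ?_
    rw [LinearMap.smul_apply, pow_apply_of_eig hu, smul_smul, ← e.map_add_eq_mul]
    congr 2
    ring
  have h2 : ∑ k ∈ Finset.range 13, e ((k : ZMod 13) * (c - d)) = ∑ t : ZMod 13, e (t * (c - d)) := by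
    rw [← Fin.sum_univ_eq_sum_range (fun k => e ((k : ZMod 13) * (c - d))) 13]
    refine Fintype.sum_equiv (ZMod.finEquiv 13).toEquiv _ _ fun i => ?_
    have : (ZMod.finEquiv 13).toEquiv i = ((i : ℕ) : ZMod 13) := (Fin.cast_val_eq_self i).symm
    rw [this]
  rw [h1, h2]
  split_ifs with h
  · subst h
    simp only [sub_self, mul_zero, AddChar.map_zero_eq_one, Finset.sum_const, Finset.card_univ,
      ZMod.card, nsmul_eq_mul, mul_one]
    exact Nat.cast_smul_eq_nsmul R 13 u
  · rw [sum_addChar_mul e he (sub_ne_zero.2 h), zero_smul]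

/-- The data in the extended Lie ring. -/
structure Dat (e : AddChar (ZMod 13) R) (B H : Module.End R T) : Prop where
  he : ∑ t, e t = 0
  lie : ∀ x y, B ⁅x, y⁆ = ⁅B x, B y⁆
  pow : B ^ 13 = 1
  zero : ∀ u, B u = u → u = 0
  rel : ∀ u, B (H u) = H ((B ^ 3) u)
  tors : ∀ u : T, 13 • u = 0 → u = 0
  div : ∀ u : T, ∃ k : ℕ, u = k • 13 • u

variable {e : AddChar (ZMod 13) R} {B H : Module.End R T}

theorem Dat.mem (D : Dat e B H) {c : ZMod 13} {u : T} (hu : u ∈ eig B (e c)) :
    H u ∈ eig B (e (3 * c)) := by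
  rw [mem_eig, D.rel, pow_apply_of_eig hu, map_smul, mul_comm]
  rfl

theorem Dat.mem2 (D : Dat e B H) {c : ZMod 13} {u : T} (hu : u ∈ eig B (e c)) :
    H (H u) ∈ eig B (e (9 * c)) := by
  have := D.mem (D.mem hu)
  rwa [← mul_assoc, show (3 * 3 : ZMod 13) = 9 by decide] at this

theorem Dat.eq_zero (D : Dat e B H) {u : T} (hu : u ∈ eig B (e 0)) : u = 0 :=
  D.zero u (by simpa using mem_eig.1 hu)

theorem Dat.induction (D : Dat e B H) {P : T → Prop} (h0 : P 0)
    (h1 : ∀ c, c ≠ 0 → ∀ u ∈ eig B (e c), P u) (h2 : ∀ x y, P x → P y → P (x + y)) (u : T) :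
    P u := by
  obtain ⟨k, hk⟩ := D.div u
  have h3 : u ∈ ⨆ i, eig B (e i) := hk ▸ nsmul_mem (nsmul_mem_iSup_eig e D.he B D.pow u) k
  refine AddSubgroup.iSup_induction _ (C := P) h3 (fun c x hx => ?_) h0 h2
  by_cases hc : c = 0
  · subst hc; rw [D.eq_zero hx]; exact h0
  · exact h1 c hc x hx

theorem Dat.lie_mem (D : Dat e B H) {a b : ZMod 13} {u v : T} (hu : u ∈ eig B (e a))
    (hv : v ∈ eig B (e b)) : ⁅u, v⁆ ∈ eig B (e (a + b)) := by
  rw [e.map_add_eq_mul]; exact lie_mem_eig D.lie hu hv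

theorem Dat.pair (D : Dat e B H)
    (h : ∀ u v : T, ⁅u + H u + H (H u), v + H v + H (H v)⁆ = 0) {a b : ZMod 13}
    (h3 : b ≠ 3 * a) (h9 : b ≠ 9 * a) {u v : T} (hu : u ∈ eig B (e a)) (hv : v ∈ eig B (e b)) :
    ⁅u, v⁆ = 0 := by
  by_cases ha : a = 0
  · subst ha; rw [D.eq_zero hu, zero_lie]
  by_cases hb : b = 0
  · subst hb; rw [D.eq_zero hv, lie_zero]
  by_cases hab : a + b = 0
  · exact D.eq_zero (hab ▸ D.lie_mem hu hv)
  have key : ∀ a b : ZMod 13, a ≠ 0 → b ≠ 0 → a + b ≠ 0 → b ≠ 3 * a → b ≠ 9 * a →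
      a + 3 * b ≠ a + b ∧ a + 9 * b ≠ a + b ∧ 3 * a + b ≠ a + b ∧ 3 * a + 3 * b ≠ a + b ∧
      3 * a + 9 * b ≠ a + b ∧ 9 * a + b ≠ a + b ∧ 9 * a + 3 * b ≠ a + b ∧
      9 * a + 9 * b ≠ a + b := by decide
  obtain ⟨k1, k2, k3, k4, k5, k6, k7, k8⟩ := key a b ha hb hab h3 h9
  have h1 := congrArg (prj e B (a + b)) (h u v)
  simp only [add_lie, lie_add, map_add, map_zero] at h1
  rw [prj_apply D.he (D.lie_mem hu hv), prj_apply D.he (D.lie_mem hu (D.mem hv)),
    prj_apply D.he (D.lie_mem hu (D.mem2 hv)), prj_apply D.he (D.lie_mem (D.mem hu) hv),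
    prj_apply D.he (D.lie_mem (D.mem hu) (D.mem hv)),
    prj_apply D.he (D.lie_mem (D.mem hu) (D.mem2 hv)), prj_apply D.he (D.lie_mem (D.mem2 hu) hv),
    prj_apply D.he (D.lie_mem (D.mem2 hu) (D.mem hv)),
    prj_apply D.he (D.lie_mem (D.mem2 hu) (D.mem2 hv)), if_pos rfl, if_neg k1, if_neg k2,
    if_neg k3, if_neg k4, if_neg k5, if_neg k6, if_neg k7, if_neg k8] at h1
  exact D.tors _ (by simpa using h1)

theorem Dat.triple (D : Dat e B H)
    (h : ∀ u v : T, ⁅u + H u + H (H u), v + H v + H (H v)⁆ = 0) (u v w : T) :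
    ⁅⁅u, v⁆, w⁆ = 0 := by
  induction u using D.induction with
  | h0 => simp
  | h2 x y hx hy => rw [add_lie, add_lie, hx, hy, add_zero]
  | h1 a ha u hu =>
    induction v using D.induction with
    | h0 => simp
    | h2 x y hx hy => rw [lie_add, add_lie, hx, hy, add_zero]
    | h1 b hb v hv =>
      induction w using D.induction with
      | h0 => simp
      | h2 x y hx hy => rw [lie_add, hx, hy, add_zero]
      | h1 c hc w hw =>
        have key : ∀ a b c : ZMod 13, a ≠ 0 → (b ≠ 3 * a ∧ b ≠ 9 * a) ∨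
            (c ≠ 3 * (a + b) ∧ c ≠ 9 * (a + b)) ∨
            (c ≠ 3 * b ∧ c ≠ 9 * b ∧ c ≠ 3 * a ∧ c ≠ 9 * a) := by decide +kernel
        rcases key a b c ha with ⟨k1, k2⟩ | ⟨k1, k2⟩ | ⟨k1, k2, k3, k4⟩
        · rw [D.pair h k1 k2 hu hv, zero_lie]
        · exact D.pair h k1 k2 (D.lie_mem hu hv) hw
        · rw [lie_lie, D.pair h k1 k2 hv hw, D.pair h k3 k4 hu hw]; simp

theorem Dat.two (D : Dat e B H) (h : ∀ u : T, 2 • (u + H u + H (H u)) = 0) (u : T) :
    2 • u = 0 := by
  induction u using D.induction with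
  | h0 => simp
  | h2 x y hx hy => rw [smul_add, hx, hy, add_zero]
  | h1 a ha u hu =>
    have key : ∀ a : ZMod 13, a ≠ 0 → 3 * a ≠ a ∧ 9 * a ≠ a := by decide
    have h1 := congrArg (prj e B a) (h u)
    rw [map_nsmul, map_add, map_add, prj_apply D.he hu, prj_apply D.he (D.mem hu),
      prj_apply D.he (D.mem2 hu), if_pos rfl, if_neg (key a ha).1, if_neg (key a ha).2,
      add_zero, add_zero, map_zero, smul_comm] at h1
    exact D.tors _ h1

theorem Dat.inv (D : Dat e B H) {Θ : Module.End R T} (hΘ : ∀ u, B (Θ u) = Θ ((B ^ 12) u))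
    (h : ∀ u : T, Θ (u + H u + H (H u)) = u + H u + H (H u)) (u : T) : u = 0 := by
  have hm : ∀ {c : ZMod 13} {u : T}, u ∈ eig B (e c) → Θ u ∈ eig B (e (12 * c)) := by
    intro c u hu
    rw [mem_eig, hΘ, pow_apply_of_eig hu, map_smul, mul_comm]
    rfl
  induction u using D.induction with
  | h0 => rfl
  | h2 x y hx hy => rw [hx, hy, add_zero]
  | h1 a ha u hu =>
    have key : ∀ a : ZMod 13, a ≠ 0 → 3 * a ≠ a ∧ 9 * a ≠ a ∧ 12 * a ≠ a ∧ 12 * (3 * a) ≠ a ∧
      12 * (9 * a) ≠ a := by decide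
    obtain ⟨k1, k2, k3, k4, k5⟩ := key a ha
    have h1 := congrArg (prj e B a) (h u)
    rw [map_add, map_add, map_add, map_add, map_add, map_add, prj_apply D.he hu,
      prj_apply D.he (D.mem hu), prj_apply D.he (D.mem2 hu), prj_apply D.he (hm hu),
      prj_apply D.he (hm (D.mem hu)), prj_apply D.he (hm (D.mem2 hu)), if_pos rfl, if_neg k1,
      if_neg k2, if_neg k3, if_neg k4, if_neg k5] at h1
    exact D.tors _ (by simpa using h1.symm)

end ext

section lie

variable {L : Type u} [LieRing L] {β η : L →+ L}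

/-- The data in the Lie ring. -/
structure LD (β η : L →+ L) : Prop where
  lie : ∀ x y, β ⁅x, y⁆ = ⁅β x, β y⁆
  pow : ∀ x, β^[13] x = x
  zero : ∀ x, β x = x → x = 0
  rel : ∀ x, β (η x) = η (β^[3] x)
  tors : ∃ m : ℕ, m.Coprime 13 ∧ ∀ x : L, m • x = 0

theorem extHom_pow_tm {R : Type} [CommRing R] (β : L →+ L) (k : ℕ) (r : R) (y : L) :
    (extHom R β ^ k) (tm r y) = tm r (β^[k] y) := by
  induction k with
  | zero => rfl
  | succ k ih => rw [pow_succ', Module.End.mul_apply, ih, Function.iterate_succ_apply']; rfl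

theorem LD.dat (D : LD β η) {R : Type} [CommRing R] {n : ℕ} (C : Cyc 13 R n) :
    Dat C.e (extHom R β) (extHom R η) := by
  obtain ⟨m, hm, hm'⟩ := D.tors
  have h1 : ∀ u : Ext R L, m • u = 0 := fun u => by
    induction u using Ext.induction with
    | h0 => simp
    | h1 r x => rw [← map_nsmul, hm', map_zero]
    | h2 x y hx hy => rw [smul_add, hx, hy, add_zero]
  have h2 : ∀ u : Ext R L, ∃ k : ℕ, u = k • 13 • u := fun u => by
    have hm0 : m ≠ 0 := by rintro rfl; simp at hm
    obtain ⟨k, -, hk⟩ := Nat.exists_mul_mod_eq_of_coprime 1 hm.symm hm0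
    refine ⟨k, ?_⟩
    rw [← mul_nsmul, ← Nat.mod_add_div (13 * k) m, add_nsmul, mul_nsmul, h1, nsmul_zero,
      add_zero, hk]
    conv_lhs => rw [← one_nsmul u, ← Nat.mod_add_div 1 m, add_nsmul, mul_nsmul, h1, nsmul_zero,
      add_zero]
  refine ⟨C.sum_e, extHom_lie β D.lie, ?_, fun u hu => ?_, fun u => ?_, fun u hu => ?_, h2⟩
  · refine LinearMap.ext fun u => ?_
    induction u using Ext.induction with
    | h0 => simp
    | h2 x y hx hy => simp only [map_add, hx, hy]
    | h1 r y => rw [extHom_pow_tm, D.pow]; rfl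
  · rw [← sum_coord C.b u]
    refine Finset.sum_eq_zero fun j _ => ?_
    rw [D.zero (coord C.b j u) (by rw [← coord_extHom, hu]), map_zero]
  · induction u using Ext.induction with
    | h0 => simp
    | h2 x y hx hy => simp only [map_add, hx, hy]
    | h1 r y => rw [extHom_pow_tm, extHom_tm, extHom_tm, extHom_tm, D.rel]
  · obtain ⟨k, hk⟩ := h2 u
    rw [hk, hu, nsmul_zero]

theorem eq_zero_of_tm {R : Type} [CommRing R] {n : ℕ} (C : Cyc 13 R n) {x : L}
    (h : tm (1 : R) x = 0) : x = 0 := by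
  simpa [coord_zero_one C.b C.b0] using congrArg (coord C.b 0) h

theorem LD.triple (D : LD β η)
    (h : ∀ u v : L, ⁅u + η u + η (η u), v + η v + η (η v)⁆ = 0) (u v w : L) :
    ⁅⁅u, v⁆, w⁆ = 0 := by
  obtain ⟨R, _, n, ⟨C⟩⟩ := exists_cyc 13
  refine eq_zero_of_tm C ?_
  rw [tm_one_lie, tm_one_lie]
  refine (D.dat C).triple (fun u v => ?_) _ _ _
  induction u using Ext.induction with
  | h0 => simp
  | h2 x y hx hy =>
    rw [map_add, map_add, show ∀ a b c d e f : Ext R L, a + b + (c + d) + (e + f) =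
      (a + c + e) + (b + d + f) from fun _ _ _ _ _ _ => by abel, add_lie, hx, hy, add_zero]
  | h1 r x =>
    induction v using Ext.induction with
    | h0 => simp
    | h2 x y hx hy =>
      rw [map_add, map_add, show ∀ a b c d e f : Ext R L, a + b + (c + d) + (e + f) =
        (a + c + e) + (b + d + f) from fun _ _ _ _ _ _ => by abel, lie_add, hx, hy, add_zero]
    | h1 s y =>
      simp only [extHom_tm, ← map_add]
      rw [tm_lie, h, map_zero]

theorem LD.two (D : LD β η) (h : ∀ u : L, 2 • (u + η u + η (η u)) = 0) (u : L) : 2 • u = 0 := by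
  obtain ⟨R, _, n, ⟨C⟩⟩ := exists_cyc 13
  refine eq_zero_of_tm C ?_
  rw [map_nsmul]
  refine (D.dat C).two (fun u => ?_) _
  induction u using Ext.induction with
  | h0 => simp
  | h2 x y hx hy =>
    rw [map_add, map_add, show ∀ a b c d e f : Ext R L, a + b + (c + d) + (e + f) =
      (a + c + e) + (b + d + f) from fun _ _ _ _ _ _ => by abel, smul_add, hx, hy, add_zero]
  | h1 r x =>
    simp only [extHom_tm, ← map_add]
    rw [← map_nsmul, h, map_zero]

theorem LD.inv (D : LD β η) {θ : L →+ L} (hθ : ∀ u, β (θ u) = θ (β^[12] u))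
    (h : ∀ u : L, θ (u + η u + η (η u)) = u + η u + η (η u)) (u : L) : u = 0 := by
  obtain ⟨R, _, n, ⟨C⟩⟩ := exists_cyc 13
  refine eq_zero_of_tm C ?_
  refine (D.dat C).inv (Θ := extHom R θ) (fun u => ?_) (fun u => ?_) _
  · induction u using Ext.induction with
    | h0 => simp
    | h2 x y hx hy => simp only [map_add, hx, hy]
    | h1 r y => rw [extHom_pow_tm, extHom_tm, extHom_tm, extHom_tm, hθ]
  · induction u using Ext.induction with
    | h0 => simp
    | h2 x y hx hy =>
      rw [map_add (extHom R η) x y, map_add (extHom R η),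
        show ∀ a b c d e f : Ext R L, a + b + (c + d) + (e + f) =
        (a + c + e) + (b + d + f) from fun _ _ _ _ _ _ => by abel, map_add, hx, hy]
    | h1 r x =>
      simp only [extHom_tm, ← map_add]
      rw [h]

end lie

section grp

variable {A : Type u} [Group A] [Finite A]

/-- A fixed coset of an automorphism of order three of a 2-group contains a fixed element. -/
theorem exists_fixed_coset (hA : IsPGroup 2 A) {η : MulAut A} (h3 : η ^ 3 = 1) {M : Subgroup A}
    (hM : ∀ x ∈ M, η x ∈ M) {g : A} (hg : g⁻¹ * η g ∈ M) : ∃ h, η h = h ∧ g⁻¹ * h ∈ M := by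
  classical
  have : Fact (Nat.Prime 3) := ⟨Nat.prime_three⟩
  have : Fact (Nat.Prime 2) := ⟨Nat.prime_two⟩
  have h1 : ∀ x : A, g⁻¹ * x ∈ M → g⁻¹ * η x ∈ M := fun x hx => by
    have := mul_mem hg (hM _ hx)
    simpa [mul_assoc] using this
  have h3' : ∀ x, η (η (η x)) = x := fun x => by
    have := congrArg (fun f : MulAut A => f x) h3
    simpa [pow_succ] using this
  let σ : Equiv.Perm {x : A // g⁻¹ * x ∈ M} :=
    { toFun := fun x => ⟨η x, h1 _ x.2⟩
      invFun := fun x => ⟨η (η x), h1 _ (h1 _ x.2)⟩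
      left_inv := fun x => Subtype.ext (h3' x)
      right_inv := fun x => Subtype.ext (h3' x) }
  have := Fintype.ofFinite {x : A // g⁻¹ * x ∈ M}
  have hc : Fintype.card {x : A // g⁻¹ * x ∈ M} = Nat.card M := by
    rw [← Nat.card_eq_fintype_card]
    exact Nat.card_congr
      { toFun := fun x => ⟨g⁻¹ * x, x.2⟩
        invFun := fun m => ⟨g * m, by simp⟩
        left_inv := fun x => by simp
        right_inv := fun x => by simp }
  obtain ⟨k, hk⟩ := IsPGroup.iff_card.1 (hA.to_subgroup M)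
  obtain ⟨x, hx⟩ := Equiv.Perm.exists_fixed_point_of_prime (p := 3) (n := 1) (σ := σ) (by
      rw [hc, hk]
      intro h
      have := Nat.prime_three.dvd_of_dvd_pow h
      omega) (by
      ext x
      simp only [pow_succ, pow_zero, one_mul, Equiv.Perm.mul_apply, Equiv.Perm.one_apply]
      exact h3' x)
  exact ⟨x, congrArg Subtype.val hx, x.2⟩

/-- The group data: a 2-group with automorphisms generating a Frobenius group of order `39`. -/
structure GD (β η : MulAut A) : Prop where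
  two : IsPGroup 2 A
  pow : β ^ 13 = 1
  fpf : ∀ g, β g = g → g = 1
  cube : η ^ 3 = 1
  rel : β * η = η * β ^ 3
  sq : ∀ g, η g = g → g * g = 1

variable {β η : MulAut A}

/-- The induced endomorphism of the Lie ring. -/
noncomputable def ind (α : MulAut A) : (lcsSer A).LR →+ (lcsSer A).LR :=
  NSer.mapL (α : A →* A) (map_mem_lcsSer _)

omit [Finite A] in
theorem ind_cl (α : MulAut A) {i : ℕ} {g : A} (hg : g ∈ (lcsSer A).F i) :
    ind α ((lcsSer A).cl i g) = (lcsSer A).cl i (α g) := NSer.mapL_cl hg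

omit [Finite A] in
theorem aut_mem (α : MulAut A) {i : ℕ} {g : A} (hg : g ∈ (lcsSer A).F i) :
    α g ∈ (lcsSer A).F i := map_mem_lcsSer (α : A →* A) i g hg

omit [Finite A] in
theorem ind_mul (α γ : MulAut A) (x : (lcsSer A).LR) : ind (α * γ) x = ind α (ind γ x) := by
  induction x using NSer.induction with
  | h0 => simp
  | h1 i g hg => rw [ind_cl _ hg, ind_cl _ hg, ind_cl _ (aut_mem _ hg)]; rfl
  | h2 x y hx hy => simp only [map_add, hx, hy]

omit [Finite A] in
theorem ind_one (x : (lcsSer A).LR) : ind 1 x = x := by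
  induction x using NSer.induction with
  | h0 => simp
  | h1 i g hg => rw [ind_cl _ hg]; rfl
  | h2 x y hx hy => simp only [map_add, hx, hy]

omit [Finite A] in
theorem ind_pow (α : MulAut A) (k : ℕ) (x : (lcsSer A).LR) : ind (α ^ k) x = (ind α)^[k] x := by
  induction k with
  | zero => exact ind_one x
  | succ k ih => rw [pow_succ', ind_mul, ih, Function.iterate_succ_apply']

theorem GD.ld (D : GD β η) : LD (ind β) (ind η) := by
  refine ⟨NSer.mapL_lie, fun x => by rw [← ind_pow, D.pow, ind_one], fun x hx => ?_,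
    fun x => by rw [← ind_pow, ← ind_mul, ← ind_mul, D.rel], Nat.card A, ?_, fun x => ?_⟩
  · refine NSer.eq_zero_of_proj fun j => ?_
    obtain ⟨y, hy, h⟩ := NSer.exists_proj_eq j x
    have h3 := NSer.proj_mapL (hφ := map_mem_lcsSer (β : A →* A)) j x
    change (lcsSer A).proj j (ind β x) = ind β _ at h3
    rw [hx, h, ind_cl _ hy, NSer.cl_eq_cl_iff hy (aut_mem _ hy)] at h3
    rw [h]
    refine NSer.cl_eq_zero ?_
    refine Cfsg.Agent.S0032.result β D.fpf _ (map_mem_lcsSer (β : A →* A) (j + 1)) y ?_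
    have := inv_mem h3
    rwa [mul_inv_rev, inv_inv] at this
  · have : Fact (Nat.Prime 2) := ⟨Nat.prime_two⟩
    obtain ⟨k, hk⟩ := IsPGroup.iff_card.1 D.two
    rw [hk]
    exact Nat.Coprime.pow_left _ (by norm_num)
  · induction x using NSer.induction with
    | h0 => simp
    | h1 i g hg => rw [← NSer.cl_pow hg, pow_card_eq_one', NSer.cl_one]
    | h2 x y hx hy => rw [smul_add, hx, hy, add_zero]

theorem GD.exists_norm (D : GD β η) {i : ℕ} {g : A} (hg : g ∈ (lcsSer A).F i) :
    ∃ h ∈ (lcsSer A).F i, η h = h ∧ (lcsSer A).cl i g + ind η ((lcsSer A).cl i g) +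
      ind η (ind η ((lcsSer A).cl i g)) = (lcsSer A).cl i h := by
  have h1 := aut_mem η hg
  have h2 := aut_mem η h1
  have h3 : η (η (η g)) = g := by
    have := congrArg (fun f : MulAut A => f g) D.cube
    simpa [pow_succ] using this
  have h4 := mul_mem (mul_mem hg h1) h2
  rw [ind_cl _ hg, ind_cl _ h1, ← NSer.cl_mul hg h1, ← NSer.cl_mul (mul_mem hg h1) h2]
  obtain ⟨h, e, hh⟩ := exists_fixed_coset D.two D.cube (M := (lcsSer A).F (i + 1))
    (fun x hx => aut_mem η hx) (g := g * η g * η (η g)) (by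
      rw [← NSer.cl_eq_cl_iff h4 (aut_mem η h4), map_mul, map_mul, h3,
        NSer.cl_mul (mul_mem hg h1) h2, NSer.cl_mul hg h1, NSer.cl_mul (mul_mem h1 h2) hg,
        NSer.cl_mul h1 h2]
      abel)
  have h5 : h ∈ (lcsSer A).F i := by
    have := mul_mem h4 ((lcsSer A).anti i hh)
    rwa [mul_inv_cancel_left] at this
  exact ⟨h, h5, e, (NSer.cl_eq_cl_iff h4 h5).2 hh⟩

omit [Finite A] in
theorem GD.comm (D : GD β η) {g h : A} (hg : η g = g) (hh : η h = h) : g * h = h * g := by
  have h1 := D.sq _ (show η (g * h) = g * h by rw [map_mul, hg, hh])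
  have h2 := D.sq _ hg
  have h3 := D.sq _ hh
  rw [← inv_eq_iff_mul_eq_one] at h1 h2 h3
  rw [← h1, mul_inv_rev, h2, h3]

theorem norm_add {L : Type*} [AddCommGroup L] (η : L →+ L) (x y : L) :
    x + y + η (x + y) + η (η (x + y)) = (x + η x + η (η x)) + (y + η y + η (η y)) := by
  simp only [map_add]; abel

/-- The group has exponent dividing four. -/
theorem GD.pow_four (D : GD β η) (g : A) : g ^ 4 = 1 := by
  have : Fact (Nat.Prime 2) := ⟨Nat.prime_two⟩
  have hn := D.two.isNilpotent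
  have h2 : ∀ i, ∀ g ∈ (lcsSer A).F i, g ^ 2 ∈ (lcsSer A).F (i + 1) := fun i g hg => by
    rw [← NSer.cl_eq_zero_iff (pow_mem hg 2), NSer.cl_pow hg]
    refine D.ld.two (fun u => ?_) _
    induction u using NSer.induction with
    | h0 => simp
    | h2 x y hx hy => rw [norm_add, smul_add, hx, hy, add_zero]
    | h1 j x hx =>
      obtain ⟨h, hh, e, e'⟩ := D.exists_norm hx
      rw [e', ← NSer.cl_pow hh, pow_two, D.sq h e, NSer.cl_one]
  have h3 : ∀ u v w : (lcsSer A).LR, ⁅⁅u, v⁆, w⁆ = 0 := D.ld.triple fun u v => by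
    induction u using NSer.induction with
    | h0 => simp
    | h2 x y hx hy => rw [norm_add, add_lie, hx, hy, add_zero]
    | h1 j x hx =>
      induction v using NSer.induction with
      | h0 => simp
      | h2 x y hx hy => rw [norm_add, lie_add, hx, hy, add_zero]
      | h1 k y hy =>
        obtain ⟨h, hh, e, e'⟩ := D.exists_norm hx
        obtain ⟨h', hh', f, f'⟩ := D.exists_norm hy
        rw [e', f', NSer.lie_cl hh hh', commutatorElement_eq_one_iff_mul_comm.2 (D.comm e f),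
          NSer.cl_one]
  have h4 : lcs (⊤ : AddSubgroup (lcsSer A).LR) 2 ≤ ⊥ := by
    refine brk_le.2 fun a ha b _ => ?_
    refine (brk_le.2 fun x _ y _ => ?_ : brk ⊤ ⊤ ≤ (LieAlgebra.ad ℤ _ b).toAddMonoidHom.ker.map
      (AddMonoidHom.id _) ⊓ AddMonoidHom.ker (AddMonoidHom.mk' (fun z => ⁅z, b⁆)
        fun _ _ => add_lie _ _ _)) ha |>.2
    refine ⟨⟨⁅x, y⁆, ?_, rfl⟩, h3 x y b⟩
    change ⁅b, ⁅x, y⁆⁆ = 0
    rw [← lie_skew, h3, neg_zero]
  have h5 : (lcsSer A).F 2 = ⊥ :=
    eq_bot_of_le_commutator_of_isNilpotent (N := ⊤) inferInstance le_top fun g hg =>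
      (NSer.cl_eq_zero_iff (S := lcsSer A) hg).1 (h4 (cl_mem_lcs 2 g hg))
  have h6 := h2 1 _ (h2 0 g (Subgroup.mem_top g))
  rw [h5, ← pow_mul] at h6
  exact h6

/-- No automorphism inverting `β` fixes the fixed points of `η`. -/
theorem GD.eq_one (D : GD β η) {θ : MulAut A} (hθ : β * θ = θ * β ^ 12)
    (h : ∀ g, η g = g → θ g = g) (g : A) : g = 1 := by
  have : Fact (Nat.Prime 2) := ⟨Nat.prime_two⟩
  have hn := D.two.isNilpotent
  have h1 : ∀ u : (lcsSer A).LR, u = 0 := D.ld.inv (θ := ind θ)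
    (fun x => by rw [← ind_pow, ← ind_mul, ← ind_mul, hθ]) fun u => by
    induction u using NSer.induction with
    | h0 => simp
    | h2 x y hx hy => rw [norm_add, map_add, hx, hy]
    | h1 j x hx =>
      obtain ⟨k, hk, e, e'⟩ := D.exists_norm hx
      rw [e', ind_cl _ hk, h k e]
  have h5 : (lcsSer A).F 0 = ⊥ :=
    eq_bot_of_le_commutator_of_isNilpotent (N := ⊤) inferInstance le_top fun g hg =>
      (NSer.cl_eq_zero_iff (S := lcsSer A) hg).1 (h1 _)
  have : g ∈ (lcsSer A).F 0 := Subgroup.mem_top g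
  rwa [h5] at this

end grp

end Cfsg.Lib.Crit
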